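import Cfsg.Agent.H83.Co.RealDef
import Cfsg.Agent.H752.Mp
import Cfsg.Agent.H781.Realized
import Mathlib.Algebra.Group.Shrink

/-!
S5227, D0: the fusion system of a finite group on the image of `P`.
-/

set_option autoImplicit false
set_option linter.style.longLine false

namespace Cfsg.Agent.H83.Co

open Subgroup Cfsg Cfsg.Agent.H752 Cfsg.Agent.H776.Co Cfsg.Agent.H776.Co.P

/-- the realisation in a group of `Type` -/
theorem exists_real_zero {G0 : Type} [Group G0] [Finite G0] (φ : P →* G0) (hφ : Function.Injective φ)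
    (hS : ∃ T : Sylow 3 G0, (T : Subgroup G0) = φ.range) :
    ∃ F : FusionSystem (⊤ : Subgroup P), F.IsSaturated 3 ∧ F.IsRealizable 3 ∧
      ∀ (Q : Subgroup P) (f : P → P), Mp F Q f ↔ ∃ g : G0, ∀ x ∈ Q, φ (f x) = g * φ x * g⁻¹ := by
  have : Fact (Nat.Prime 3) := ⟨Nat.prime_three⟩
  obtain ⟨T, hT⟩ := hS
  set ι : (⊤ : Subgroup P) →* G0 := φ.comp (⊤ : Subgroup P).subtype with hι
  have hιi : Function.Injective ι := fun x y h => Subtype.ext (hφ h)
  have hTι : (T : Subgroup G0) = ι.range := by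
    rw [hT]
    ext y
    constructor
    · rintro ⟨x, rfl⟩
      exact ⟨⟨x, mem_top x⟩, rfl⟩
    · rintro ⟨x, rfl⟩
      exact ⟨x, rfl⟩
  have hr : (H781.pullback ι hιi).IsRealizedBy ι := H781.pullback_isRealizedBy ι hιi
  have hreal : (H781.pullback ι hιi).IsRealizable 3 := ⟨G0, inferInstance, inferInstance, ι, hr, T, hTι⟩
  refine ⟨H781.pullback ι hιi, H781.isSaturated_of_isRealizable hreal, hreal, fun Q f => ⟨?_, ?_⟩⟩
  · rintro ⟨ψ, ⟨_, _, g, hg⟩, hψ⟩
    refine ⟨g, fun x hx => ?_⟩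
    rw [← hψ x hx]
    exact hg ⟨x, hx⟩
  · rintro ⟨g, hg⟩
    refine ⟨MonoidHom.mk' (fun x : Q => f x) ?_, ⟨le_top, fun _ => mem_top _, g, fun x => ?_⟩, fun x hx => rfl⟩
    · intro a b
      apply hφ
      rw [map_mul, hg _ a.2, hg _ b.2, hg _ (a * b).2, Subgroup.coe_mul, map_mul]
      group
    · exact hg x x.2

/-- **D0**: the fusion system of a finite group on the image of `P`. -/
theorem exists_real {G0 : Type*} [Group G0] [Finite G0] (φ : P →* G0) (hφ : Function.Injective φ)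
    (hS : ∃ T : Sylow 3 G0, (T : Subgroup G0) = φ.range) :
    ∃ F : FusionSystem (⊤ : Subgroup P), F.IsSaturated 3 ∧ F.IsRealizable 3 ∧
      ∀ (Q : Subgroup P) (f : P → P), Mp F Q f ↔ ∃ g : G0, ∀ x ∈ Q, φ (f x) = g * φ x * g⁻¹ := by
  have : Fact (Nat.Prime 3) := ⟨Nat.prime_three⟩
  have : Small.{0} G0 := Countable.toSmall G0
  obtain ⟨T, hT⟩ := hS
  let e : G0 ≃* Shrink.{0} G0 := (Shrink.mulEquiv (α := G0)).symm
  have : Finite (Shrink.{0} G0) := Finite.of_equiv G0 e.toEquiv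
  obtain ⟨F, h1, h2, h3⟩ := exists_real_zero (G0 := Shrink.{0} G0) (e.toMonoidHom.comp φ)
    (e.injective.comp hφ) ⟨T.mapSurjective e.surjective, by
      rw [Sylow.coe_mapSurjective, hT, MonoidHom.range_comp]⟩
  refine ⟨F, h1, h2, fun Q f => (h3 Q f).trans ⟨?_, ?_⟩⟩
  · rintro ⟨g, hg⟩
    refine ⟨e.symm g, fun x hx => e.injective ?_⟩
    have := hg x hx
    simp only [map_mul, map_inv, MulEquiv.apply_symm_apply]
    exact this
  · rintro ⟨g, hg⟩
    refine ⟨e g, fun x hx => ?_⟩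
    show e (φ (f x)) = e g * e (φ x) * (e g)⁻¹
    rw [hg x hx, map_mul, map_mul, map_inv]

end Cfsg.Agent.H83.Co
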