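import Cfsg.Agent.H776.Co.Maps
import Mathlib.GroupTheory.Sylow

/-!
The data to be found in a finite group (S5227, section D).
-/

set_option autoImplicit false
set_option linter.style.longLine false

namespace Cfsg.Agent.H83.Co

open Cfsg.Agent.H776.Co Cfsg.Agent.H776.Co.P

/-- the data to be found in a finite group: type `(k, big)`; `big` iff `tor 1 1 (-1)` is induced -/
structure RealData (k : ZMod 3) (big : Prop) (G0 : Type*) [Group G0] : Prop where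
  ex : ∃ φ : P →* G0, Function.Injective φ ∧ (∃ T : Sylow 3 G0, (T : Subgroup G0) = φ.range) ∧
    (∃ g : G0, ∀ x, φ (tor (-1) 1 1 x) = g * φ x * g⁻¹) ∧ (∃ g : G0, ∀ x, φ (tor 1 (-1) 1 x) = g * φ x * g⁻¹) ∧
    (∃ g : G0, ∀ x ∈ R1, φ (w1 x) = g * φ x * g⁻¹) ∧ (∃ g : G0, ∀ x ∈ R2, φ (w2 k x) = g * φ x * g⁻¹) ∧
    (∃ g : G0, ∀ x ∈ R3, φ (w3 x) = g * φ x * g⁻¹) ∧
    (big → ∃ g : G0, ∀ x, φ (tor 1 1 (-1) x) = g * φ x * g⁻¹) ∧
    (¬ big → ∀ f : P → P, (∃ g : G0, ∀ x, φ (f x) = g * φ x * g⁻¹) → (∀ x, (f x).m33 = - x.m33) → False)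

end Cfsg.Agent.H83.Co
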